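import Mathlib
import Cfsg.Agent.H19.Cores
import Cfsg.Agent.H19.Fitting
import Cfsg.Agent.H84.FpfFour
import Cfsg.Agent.H21.Fpf

set_option autoImplicit false

/-! Criteria for membership in the Fitting subgroup. -/

namespace Cfsg.Agent.H84

variable {G : Type*} [Group G] [Finite G]

/-- The part of `F(G)` of order prime to `q`. -/
def fittingPrimeTo (q : ℕ) (G : Type*) [Group G] : Subgroup G :=
  ⨆ p : {p : Nat.Primes // (p : ℕ) ≠ q}, Cfsg.pCore (p.1 : ℕ) G

theorem fittingPrimeTo_normal (q : ℕ) (G : Type*) [Group G] : (fittingPrimeTo q G).Normal := by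
  haveI : ∀ p : {p : Nat.Primes // (p : ℕ) ≠ q}, (Cfsg.pCore (p.1 : ℕ) G).Normal :=
    fun p => H19.pCore_normal _ G
  exact Subgroup.iSup_normal _

theorem fittingPrimeTo_le (q : ℕ) : fittingPrimeTo q G ≤ Cfsg.fittingSubgroup G :=
  iSup_le fun p => by
    haveI := Fact.mk p.1.2
    exact H19.pCore_le_fitting _

theorem fitting_eq_sup_fittingPrimeTo (q : ℕ) [Fact q.Prime] :
    Cfsg.fittingSubgroup G = Cfsg.pCore q G ⊔ fittingPrimeTo q G := by
  refine le_antisymm ?_ (sup_le (H19.pCore_le_fitting q) (fittingPrimeTo_le q))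
  rw [H19.fitting_eq_iSup_pCore]
  refine iSup_le fun p => ?_
  by_cases h : (p : ℕ) = q
  · rw [h]; exact le_sup_left
  · exact le_sup_of_le_right
      (le_iSup (fun p : {p : Nat.Primes // (p : ℕ) ≠ q} => Cfsg.pCore (p.1 : ℕ) G) ⟨p, h⟩)

/-- The index of `fittingPrimeTo q G` in `F(G)` is a power of `q`. -/
theorem relIndex_fittingPrimeTo (q : ℕ) [Fact q.Prime] :
    ∃ k, (fittingPrimeTo q G).relIndex (Cfsg.fittingSubgroup G) = q ^ k := by
  haveI := fittingPrimeTo_normal q G
  rw [fitting_eq_sup_fittingPrimeTo q, Subgroup.relIndex_sup_right]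
  obtain ⟨a, ha⟩ := IsPGroup.iff_card.1 (H19.pCore_isPGroup (G := G) q)
  obtain ⟨c, -, hc⟩ := (Nat.dvd_prime_pow (Fact.out : q.Prime)).1
    (ha ▸ Subgroup.relIndex_dvd_card (fittingPrimeTo q G) (Cfsg.pCore q G))
  exact ⟨c, hc⟩

/-- A normal subgroup which centralises the `q'`-part of `F(G)` and is a `q`-group modulo it lies
in `F(G)`. -/
theorem le_fitting_of_centralizes (q : ℕ) [Fact q.Prime] (C : Subgroup G) [C.Normal]
    (hC : C ≤ Subgroup.centralizer (fittingPrimeTo q G : Set G))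
    (hidx : ∃ k, (fittingPrimeTo q G).relIndex C = q ^ k) : C ≤ Cfsg.fittingSubgroup G := by
  haveI := fittingPrimeTo_normal q G
  refine H19.le_fitting inferInstance ?_
  obtain ⟨k, hk⟩ := hidx
  have hq : IsPGroup q (C ⧸ (fittingPrimeTo q G).subgroupOf C) :=
    IsPGroup.of_card (n := k) (by rw [← Subgroup.index_eq_card]; exact hk)
  haveI := hq.isNilpotent
  refine Subgroup.isNilpotent_of_ker_le_center
    (QuotientGroup.mk' ((fittingPrimeTo q G).subgroupOf C)) ?_
  rw [QuotientGroup.ker_mk']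
  intro v hv
  rw [Subgroup.mem_center_iff]
  intro w
  refine Subtype.ext ?_
  exact (Subgroup.mem_centralizer_iff.1 (hC w.2) (v : G) hv).symm

/-- An element of the preimage of `O_q(G/F(G))` centralising every `O_p(G)`, `p ≠ q`, is in `F(G)`. -/
theorem mem_fitting_of_mem_comap_pCore (q : ℕ) [Fact q.Prime] (z : G)
    (hz : haveI := H19.fitting_normal G;
      z ∈ (Cfsg.pCore q (G ⧸ Cfsg.fittingSubgroup G)).comap
        (QuotientGroup.mk' (Cfsg.fittingSubgroup G)))
    (hc : ∀ p : ℕ, p.Prime → p ≠ q → z ∈ Subgroup.centralizer (Cfsg.pCore p G : Set G)) :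
    z ∈ Cfsg.fittingSubgroup G := by
  haveI := H19.fitting_normal G
  haveI := fittingPrimeTo_normal q G
  set F := Cfsg.fittingSubgroup G with hF
  haveI := H19.pCore_normal q (G ⧸ F)
  set L := (Cfsg.pCore q (G ⧸ F)).comap (QuotientGroup.mk' F) with hL
  haveI : L.Normal := by rw [hL]; infer_instance
  set C := L ⊓ Subgroup.centralizer (fittingPrimeTo q G : Set G) with hCdef
  haveI : C.Normal := by rw [hCdef]; infer_instance
  refine le_fitting_of_centralizes q C inf_le_right ?_ (Subgroup.mem_inf.2 ⟨hz, ?_⟩)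
  · have h1 : (fittingPrimeTo q G).relIndex F * F.relIndex L = (fittingPrimeTo q G).relIndex L :=
      Subgroup.relIndex_mul_relIndex _ _ _ (fittingPrimeTo_le q)
        ((QuotientGroup.ker_mk' F).symm.le.trans (Subgroup.ker_le_comap _ _))
    have h2 : F.relIndex L = Nat.card (Cfsg.pCore q (G ⧸ F)) := by
      have : F = (⊥ : Subgroup (G ⧸ F)).comap (QuotientGroup.mk' F) := by
        rw [MonoidHom.comap_bot, QuotientGroup.ker_mk']
      conv_lhs => rw [this]
      rw [Subgroup.relIndex_comap, hL, Subgroup.map_comap_eq_self_of_surjective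
        (QuotientGroup.mk'_surjective F), Subgroup.relIndex_bot_left]
    obtain ⟨a, ha⟩ := relIndex_fittingPrimeTo (G := G) q
    obtain ⟨b, hb⟩ := IsPGroup.iff_card.1 (H19.pCore_isPGroup (G := G ⧸ F) q)
    rw [ha, h2, hb, ← pow_add] at h1
    have hdvd : (fittingPrimeTo q G).relIndex C ∣ q ^ (a + b) := by
      rw [h1]
      have : ((fittingPrimeTo q G).subgroupOf L).relIndex (C.subgroupOf L)
          = (fittingPrimeTo q G).relIndex C := Subgroup.relIndex_subgroupOf inf_le_left
      rw [← this]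
      exact Subgroup.relIndex_dvd_index_of_normal _ _
    obtain ⟨c, -, hc⟩ := (Nat.dvd_prime_pow (Fact.out : q.Prime)).1 hdvd
    exact ⟨c, hc⟩
  · rw [← Subgroup.zpowers_le, Subgroup.le_centralizer_iff]
    refine iSup_le fun p => Subgroup.le_centralizer_iff.1 (Subgroup.zpowers_le.2 ?_)
    exact hc _ p.1.2 p.2

/-- A normal subgroup of a solvable group whose `r`-elements centralise `O_q(G)` for all
`q ≠ r` lies in `F(G)`. -/
theorem le_fitting_of_centralize_pCores [Group.IsSolvable G] (N : Subgroup G) [N.Normal]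
    (h : ∀ r q : ℕ, r.Prime → q.Prime → r ≠ q → ∀ x ∈ N, (∃ k : ℕ, orderOf x = r ^ k) →
      x ∈ Subgroup.centralizer (Cfsg.pCore q G : Set G)) : N ≤ Cfsg.fittingSubgroup G := by
  haveI := H19.fitting_normal G
  suffices hmem : ∀ r : ℕ, r.Prime → ∀ x ∈ N, (∃ k : ℕ, orderOf x = r ^ k) →
      x ∈ Cfsg.fittingSubgroup G by
    have htop : (Cfsg.fittingSubgroup G).subgroupOf N = ⊤ := by
      rw [← Subgroup.card_eq_iff_eq_top]
      refine Nat.dvd_antisymm (Subgroup.card_subgroup_dvd_card _) ?_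
      rw [← Nat.factorization_le_iff_dvd Nat.card_pos.ne' Nat.card_pos.ne']
      intro r
      by_cases hr : r.Prime
      · haveI := Fact.mk hr
        obtain ⟨P⟩ : Nonempty (Sylow r N) := inferInstance
        have hle : (P : Subgroup N) ≤ (Cfsg.fittingSubgroup G).subgroupOf N := fun x hx => by
          obtain ⟨k, hk⟩ := IsPGroup.iff_orderOf.1 P.isPGroup' ⟨x, hx⟩
          exact hmem r hr x x.2 ⟨k, by rwa [Subgroup.orderOf_mk, ← Subgroup.orderOf_coe] at hk⟩
        exact (hr.pow_dvd_iff_le_factorization Nat.card_pos.ne').1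
          (P.card_eq_multiplicity ▸ Subgroup.card_dvd_of_le hle)
      · simp [Nat.factorization_eq_zero_of_not_prime _ hr]
    exact Subgroup.subgroupOf_eq_top.1 htop
  intro r hr x hxN hx
  haveI := Fact.mk hr
  haveI := fittingPrimeTo_normal r G
  set K := N ⊓ Subgroup.centralizer (fittingPrimeTo r G : Set G) with hK
  haveI : K.Normal := by rw [hK]; infer_instance
  refine le_fitting_of_centralizes r K inf_le_right ?_ (Subgroup.mem_inf.2 ⟨hxN, ?_⟩)
  · -- no other prime divides the index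
    have hq : ∀ q : ℕ, q.Prime → q ∣ (fittingPrimeTo r G).relIndex K → q = r := by
      intro q hq hdvd
      by_contra hne
      haveI := Fact.mk hq
      obtain ⟨P⟩ : Nonempty (Sylow q K) := inferInstance
      refine P.not_dvd_index (hdvd.trans (Subgroup.index_dvd_of_le (fun y hy => ?_)))
      rw [Subgroup.mem_subgroupOf]
      obtain ⟨k, hk⟩ := IsPGroup.iff_orderOf.1 P.isPGroup' ⟨y, hy⟩
      rw [Subgroup.orderOf_mk, ← Subgroup.orderOf_coe] at hk
      have hyF : (y : G) ∈ Cfsg.fittingSubgroup G := by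
        apply H19.centralizer_fitting_le
        rw [← Subgroup.zpowers_le, Subgroup.le_centralizer_iff, fitting_eq_sup_fittingPrimeTo r]
        refine sup_le ?_ ?_ <;> rw [Subgroup.le_centralizer_iff, Subgroup.zpowers_le]
        · exact h q r hq hr hne _ (Subgroup.mem_inf.1 y.2).1 ⟨k, hk⟩
        · exact (Subgroup.mem_inf.1 y.2).2
      obtain ⟨a, ha⟩ := relIndex_fittingPrimeTo (G := G) r
      set F := Cfsg.fittingSubgroup G with hF
      have hco : (orderOf (⟨(y : G), hyF⟩ : F)).Coprime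
          ((fittingPrimeTo r G).subgroupOf F).index := by
        change (orderOf (⟨(y : G), hyF⟩ : F)).Coprime ((fittingPrimeTo r G).relIndex F)
        rw [ha, Subgroup.orderOf_mk, hk]
        exact Nat.Coprime.pow _ _ ((Nat.coprime_primes hq hr).2 hne)
      have h1 : ((⟨(y : G), hyF⟩ : F) : F ⧸ (fittingPrimeTo r G).subgroupOf F) = 1 := by
        rw [← orderOf_eq_one_iff]
        exact Nat.eq_one_of_dvd_coprimes hco (orderOf_map_dvd (QuotientGroup.mk' _) _)
          (by rw [Subgroup.index_eq_card]; exact orderOf_dvd_natCard _)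
      rw [QuotientGroup.eq_one_iff, Subgroup.mem_subgroupOf] at h1
      exact h1
    set m := (fittingPrimeTo r G).relIndex K with hm
    have hm0 : m ≠ 0 := Subgroup.index_ne_zero_of_finite
    exact ⟨m.primeFactorsList.length,
      Nat.eq_prime_pow_of_unique_prime_dvd hm0 (fun {d} hd hdm => hq d hd hdm)⟩
  · rw [← Subgroup.zpowers_le, Subgroup.le_centralizer_iff]
    refine iSup_le fun q => Subgroup.le_centralizer_iff.1 (Subgroup.zpowers_le.2 ?_)
    exact h r _ hr q.1.2 (Ne.symm q.2) x hxN hx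

/-- A solvable group in which every `r`-element centralises `O_q` for all `q ≠ r` is nilpotent. -/
theorem isNilpotent_of_centralize_pCores [Group.IsSolvable G]
    (h : ∀ r q : ℕ, r.Prime → q.Prime → r ≠ q → ∀ x : G, (∃ k : ℕ, orderOf x = r ^ k) →
      x ∈ Subgroup.centralizer (Cfsg.pCore q G : Set G)) : Group.IsNilpotent G := by
  have htop : Cfsg.fittingSubgroup G = ⊤ := top_le_iff.1
    (le_fitting_of_centralize_pCores ⊤ fun r q hr hq hrq x _ hx => h r q hr hq hrq x hx)
  have h2 := H19.fitting_isNilpotent (G := G)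
  rw [htop] at h2
  exact (Group.isNilpotent_congr Subgroup.topEquiv).1 h2

/-- A group of automorphisms of `p`-power order, `p` prime to `|K|`, fixes some Sylow subgroup of
an invariant subgroup `K`. -/
theorem exists_invariant_sylow {p : ℕ} [Fact p.Prime] (A : Subgroup (MulAut G)) (hA : IsPGroup p A)
    (K : Subgroup G) (hK : ∀ a ∈ A, ∀ k ∈ K, (a : MulAut G) k ∈ K) (hp : ¬ p ∣ Nat.card K)
    (r : ℕ) [Fact r.Prime] :
    ∃ S : Sylow r K, ∀ a ∈ A, ∀ v ∈ (S : Subgroup K).map K.subtype,
      (a : MulAut G) v ∈ (S : Subgroup K).map K.subtype := by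
  choose f hf using fun a : A => exists_restrict (a : MulAut G) K (hK a a.2)
  let ψ : A →* MulAut K := MonoidHom.mk' f (fun a b => by
    refine MulEquiv.ext fun v => Subtype.ext ?_
    rw [MulAut.mul_apply, hf, hf, hf]
    rfl)
  obtain ⟨S, hS⟩ := H21.exists_sylow_fixed hA ψ hp r
  refine ⟨S, ?_⟩
  rintro a ha _ ⟨v, hv, rfl⟩
  exact ⟨ψ ⟨a, ha⟩ v, (hS ⟨a, ha⟩).le ⟨v, hv, rfl⟩, hf ⟨a, ha⟩ v⟩

end Cfsg.Agent.H84
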