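import Mathlib
import Cfsg.Prelude.Def_TwoFusion
import Cfsg.Agent.H22.Frobenius
import Cfsg.Agent.H23.PPrimeQuotient
import Cfsg.Agent.H84.WardCore

/-! Frobenius' normal `p`-complement criterion relative to a strongly closed subgroup. -/

set_option autoImplicit false

namespace Cfsg.Agent.H84

open Subgroup
open scoped Pointwise

variable {G : Type*} [Group G] [Finite G] {p : ℕ} [hp : Fact p.Prime]

/-- If all elements of order prime to `p` of `H` map to `1`, the image of `H` is a `p`-group. -/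
theorem isPGroup_map_of_pPrime_trivial {M : Type*} [Group M] (φ : G →* M)
    (h : ∀ x : G, (orderOf x).Coprime p → φ x = 1) : IsPGroup p φ.range := by
  rintro ⟨_, x, rfl⟩
  refine ⟨(orderOf x).factorization p, Subtype.ext ?_⟩
  show φ x ^ p ^ (orderOf x).factorization p = 1
  rw [← map_pow]
  refine h _ ?_
  rw [orderOf_pow_of_dvd (pow_ne_zero _ hp.out.ne_zero) (Nat.ordProj_dvd _ _)]
  exact (Nat.coprime_ordCompl hp.out (orderOf_pos x).ne').symm

/-- If `Q ≤ S`, some conjugate of `Q` in `S` has `N_S` Sylow in its normaliser. -/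
theorem exists_fully_normalized (S : Sylow p G) {Q : Subgroup G} (hQ : Q ≤ (S : Subgroup G)) :
    ∃ c : G, Q.map (MulAut.conj c).toMonoidHom ≤ (S : Subgroup G) ∧
      ∀ R : Subgroup G, IsPGroup p R →
        R ≤ normalizer ((Q.map (MulAut.conj c).toMonoidHom : Subgroup G) : Set G) →
        (S : Subgroup G) ⊓ normalizer ((Q.map (MulAut.conj c).toMonoidHom : Subgroup G) : Set G) ≤ R →
        R ≤ (S : Subgroup G) := by
  classical
  set N := normalizer (Q : Set G)
  have hQp : IsPGroup p (Q.subgroupOf N) :=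
    ((S.2.to_le hQ).comap_subtype)
  obtain ⟨T, hT⟩ := hQp.exists_le_sylow
  obtain ⟨S', hS'⟩ := (T.2.map N.subtype).exists_le_sylow
  obtain ⟨c, hc⟩ := MulAction.exists_smul_eq G S' S
  set Q' := Q.map (MulAut.conj c).toMonoidHom with hQ'
  have hS'S : ∀ x, x ∈ (S' : Subgroup G) → c * x * c⁻¹ ∈ (S : Subgroup G) := fun x hx => by
    rw [← hc]
    exact ⟨x, hx, rfl⟩
  refine ⟨c, ?_, fun R hR hRN hSR => ?_⟩
  · rintro _ ⟨x, hx, rfl⟩
    exact hS'S x (hS' ⟨⟨x, le_normalizer hx⟩, hT hx, rfl⟩)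
  · have hback : ∀ x ∈ normalizer (Q' : Set G), c⁻¹ * x * c ∈ N := by
      intro x hx
      refine mem_normalizer_of_forall fun q hq => ?_
      obtain ⟨q', hq', he⟩ := (mem_normalizer_iff.1 hx (c * q * c⁻¹)).1 ⟨q, hq, rfl⟩
      have he' : c * q' * c⁻¹ = x * (c * q * c⁻¹) * x⁻¹ := he
      have : c⁻¹ * x * c * q * (c⁻¹ * x * c)⁻¹ = q' :=
        calc c⁻¹ * x * c * q * (c⁻¹ * x * c)⁻¹
            = c⁻¹ * (x * (c * q * c⁻¹) * x⁻¹) * c := by group
          _ = q' := by rw [← he']; group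
      rw [this]; exact hq'
    let f : R →* N := MonoidHom.mk' (fun x => ⟨c⁻¹ * x * c, hback x (hRN x.2)⟩)
      (fun a b => Subtype.ext (by simp [mul_assoc]))
    have hRp : IsPGroup p f.range := hR.of_surjective f.rangeRestrict f.rangeRestrict_surjective
    have hTR : (T : Subgroup N) ≤ f.range := by
      intro t ht
      have htS : c * (t : G) * c⁻¹ ∈ (S : Subgroup G) := hS'S t (hS' ⟨t, ht, rfl⟩)
      have htN : c * (t : G) * c⁻¹ ∈ normalizer (Q' : Set G) :=
        le_normalizer_map (MulAut.conj c).toMonoidHom ⟨t, t.2, rfl⟩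
      refine ⟨⟨_, hSR ⟨htS, htN⟩⟩, Subtype.ext ?_⟩
      show c⁻¹ * (c * (t : G) * c⁻¹) * c = t
      group
    have hRT : f.range = T := T.3 hRp hTR
    intro x hx
    have h1 : f ⟨x, hx⟩ ∈ (T : Subgroup N) := hRT ▸ ⟨_, rfl⟩
    have h2 := hS'S _ (hS' ⟨_, h1, rfl⟩)
    have h3 : c * (c⁻¹ * x * c) * c⁻¹ = x := by group
    rw [← h3]
    exact h2

/-- Frobenius' condition from the normalisers of the `D`-centric subgroups. -/
theorem frobeniusCondition_of_stronglyClosed (S : Sylow p G) {D : Subgroup G}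
    (hD : Cfsg.IsStronglyClosed D (S : Subgroup G))
    (h : ∀ U : Subgroup G, U ≤ D → D ⊓ centralizer (U : Set G) ≤ U →
      Cfsg.HasNormalPComplement p ↥(normalizer (U : Set G))) :
    H22.FrobeniusCondition p G := by
  refine H22.frobeniusCondition_of_sylow S ?_
  intro Q
  induction hn : Nat.card G - Nat.card Q using Nat.strong_induction_on generalizing Q with
  | _ n ih =>
  subst hn
  intro hQ g₀ hg₀ hgp₀
  obtain ⟨c, hQc, hfull⟩ := exists_fully_normalized S hQ
  set Q' := Q.map (MulAut.conj c).toMonoidHom with hQ'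
  suffices key : ∀ g ∈ normalizer (Q' : Set G), (orderOf g).Coprime p →
      g ∈ centralizer (Q' : Set G) by
    have h1 := key ((MulAut.conj c).toMonoidHom g₀) (le_normalizer_map _ ⟨g₀, hg₀, rfl⟩)
      (by rwa [(MulAut.conj c).toMonoidHom_eq_coe, MonoidHom.coe_coe, (MulAut.conj c).orderOf_eq])
    refine mem_centralizer_iff.mpr fun d hd => (MulAut.conj c).injective ?_
    simpa using mem_centralizer_iff.mp h1 _ ⟨d, hd, rfl⟩
  have hcard : Nat.card Q' = Nat.card Q := card_map_of_injective (MulAut.conj c).injective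
  clear_value Q'
  clear hQ'
  have hQ'p : IsPGroup p Q' := S.2.to_le hQc
  set H := normalizer (Q' : Set G) with hH
  set U := Q' ⊓ D with hU
  have hHU : H ≤ normalizer (U : Set G) := fun x hx => mem_normalizer_of_forall fun u hu => by
    have hq : x * u * x⁻¹ ∈ Q' := conj_mem_of_mem_normalizer hx hu.1
    exact ⟨hq, hD.2 u hu.2 x (hQc hq)⟩
  intro g hg hgp
  by_cases hcen : D ⊓ centralizer (U : Set G) ≤ U
  · have hnpc : Cfsg.HasNormalPComplement p H :=
      H23.hasNormalPComplement_mono hHU (h U inf_le_right hcen)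
    refine mem_centralizer_iff.mpr fun d hd => ?_
    let Q'' := Q'.subgroupOf H
    have : Q''.Normal := normal_in_normalizer
    have hg' : (⟨g, hg⟩ : H) ∈ Cfsg.pResidual p H :=
      H22.mem_pResidual_of_coprime (by rw [← Subgroup.orderOf_coe]; exact hgp)
    have hd' : (⟨d, le_normalizer hd⟩ : H) ∈ Q'' := hd
    have hbot : Q'' ⊓ Cfsg.pResidual p H = ⊥ :=
      H22.isPGroup_inf_eq_bot hQ'p.comap_subtype _ (H22.hasNormalPComplement_iff.mp hnpc)
    have := commute_of_normal_of_disjoint Q'' (Cfsg.pResidual p H) this H22.pResidual_normal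
      (disjoint_iff.mpr hbot) _ _ hd' hg'
    exact congrArg Subtype.val this.eq
  set C := D ⊓ centralizer (U : Set G) with hC
  have hSD : (S : Subgroup G) ≤ normalizer (D : Set G) := fun s hs =>
    mem_normalizer_of_forall fun d hd =>
      hD.2 d hd s (mul_mem (mul_mem hs (hD.1 hd)) (inv_mem hs))
  have hQC : Q' ≤ normalizer (C : Set G) := fun q hq => mem_normalizer_of_forall fun d hd => by
    refine ⟨conj_mem_of_mem_normalizer (hSD (hQc hq)) hd.1, mem_centralizer_iff.2 fun u hu => ?_⟩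
    have hu' : q⁻¹ * u * q ∈ U := by
      simpa using conj_mem_of_mem_normalizer (inv_mem (hHU (le_normalizer hq))) hu
    calc u * (q * d * q⁻¹) = q * ((q⁻¹ * u * q) * d) * q⁻¹ := by group
      _ = q * (d * (q⁻¹ * u * q)) * q⁻¹ := by rw [mem_centralizer_iff.1 hd.2 _ hu']
      _ = q * d * q⁻¹ * u := by group
  set T := C ⊓ H with hT
  have hTQ : ¬ T ≤ Q' := by
    intro hle
    have hC' : ¬ C ≤ Q' := fun hCQ => hcen fun x hx => ⟨hCQ hx, hx.1⟩
    have hlt : Q' < Q' ⊔ C := lt_of_le_of_ne le_sup_left fun he => hC' (he ▸ le_sup_right)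
    obtain ⟨x, hx, hxQ⟩ := SetLike.exists_of_lt (H22.lt_inf_normalizer_of_lt (p := p)
      (S.2.to_le (sup_le hQc (inf_le_left.trans hD.1))) hlt)
    have hxs : x ∈ ((Q' ⊔ C : Subgroup G) : Set G) := hx.1
    rw [coe_mul_of_left_le_normalizer_right Q' C hQC] at hxs
    obtain ⟨q, hq, d, hd, rfl⟩ := hxs
    have hdH : d ∈ H := by simpa using mul_mem (inv_mem (le_normalizer hq : q ∈ H)) hx.2
    exact hxQ (mul_mem hq (hle ⟨hd, hdH⟩))
  -- the stability subgroup
  set K := fixMod Q' U ⊓ centralizer (U : Set G) with hK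
  have hKH : K ≤ H := fun x hx => (mem_fixMod.1 hx.1).1
  have hTK : T ≤ K := by
    rintro t ⟨⟨htD, htU⟩, htH⟩
    refine ⟨mem_fixMod.2 ⟨htH, hHU htH, fun q hq => ⟨?_, ?_⟩⟩, htU⟩
    · exact mul_mem (conj_mem_of_mem_normalizer htH hq) (Q'.inv_mem hq)
    · have h1 := conj_mem_of_mem_normalizer (hSD (hQc hq)) (D.inv_mem htD)
      have := mul_mem htD h1
      simpa [mul_assoc] using this
  haveI hKn : (K.subgroupOf H).Normal := ⟨fun k hk s => by
    have hs := hHU s.2
    refine ⟨?_, mem_centralizer_iff.2 fun u hu => ?_⟩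
    · have := conj_mem_fixMod s.2 hk.1
      rwa [H20.conj_smul_eq_of_mem_normalizer hs] at this
    · have hu' : (s : G)⁻¹ * u * s ∈ U := by
        simpa using conj_mem_of_mem_normalizer (inv_mem hs) hu
      show u * ((s : G) * k * (s : G)⁻¹) = (s : G) * k * (s : G)⁻¹ * u
      have e : (s : G)⁻¹ * u * s * (k : G) = (k : G) * ((s : G)⁻¹ * u * s) :=
        mem_centralizer_iff.1 hk.2 _ hu'
      calc u * ((s : G) * k * (s : G)⁻¹) = s * (((s : G)⁻¹ * u * s) * k) * (s : G)⁻¹ := by group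
        _ = s * ((k : G) * ((s : G)⁻¹ * u * s)) * (s : G)⁻¹ := by rw [e]
        _ = s * k * (s : G)⁻¹ * u := by group⟩
  set K' := K.subgroupOf H with hK'
  -- a Sylow subgroup of `K` inside `S`
  have hSp : IsPGroup p (((S : Subgroup G) ⊓ K).subgroupOf K) :=
    (S.2.to_le inf_le_left).comap_subtype
  have hRS : IsPGroup p (((S : Subgroup G).subgroupOf H ⊓ K').subgroupOf K') :=
    ((S.2.comap_subtype (K := H)).to_le inf_le_left).comap_subtype
  obtain ⟨R, hR⟩ := hRS.exists_le_sylow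
  set RG := ((R : Subgroup K').map K'.subtype).map H.subtype with hRG
  have hRGS : RG ≤ (S : Subgroup G) := by
    have hSH : (S : Subgroup G) ⊓ H ≤ normalizer (RG : Set G) → RG ≤ (S : Subgroup G) := fun hn => by
      refine le_sup_left.trans (hfull (RG ⊔ ((S : Subgroup G) ⊓ H)) ?_ ?_ le_sup_right)
      · exact ((R.2.map _).map _).to_sup_of_normal_left' (S.2.to_le inf_le_left) hn
      · exact sup_le (map_subtype_le _) inf_le_right
    obtain ⟨P', hP'⟩ := (S.2.comap_subtype (K := H)).exists_le_sylow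
    have hP'S : (P' : Subgroup H).map H.subtype ≤ (S : Subgroup G) :=
      hfull _ (P'.2.map _) (map_subtype_le _)
        (fun x hx => ⟨⟨x, hx.2⟩, hP' hx.1, rfl⟩)
    have hRT : ∀ T' : Sylow p K', (∀ x : K', (x : H) ∈ (P' : Subgroup H) → x ∈ (T' : Subgroup K')) →
        ∀ x : K', x ∈ (T' : Subgroup K') → (x : H) ∈ (P' : Subgroup H) := by
      intro T' hT' x hx
      obtain ⟨P'', hP''⟩ := (T'.2.map K'.subtype).exists_le_sylow
      obtain ⟨a, ha⟩ := MulAction.exists_smul_eq H P'' P'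
      have hle : Nat.card T' ≤ Nat.card ((P' : Subgroup H).subgroupOf K') := by
        refine Nat.card_le_card_of_injective
          (fun y : T' => (⟨⟨a * (y : K') * a⁻¹, hKn.conj_mem _ (y : K').2 a⟩, ?_⟩ :
            (P' : Subgroup H).subgroupOf K')) ?_
        · show a * ((y : K') : H) * a⁻¹ ∈ (P' : Subgroup H)
          rw [← ha]
          exact ⟨_, hP'' ⟨_, y.2, rfl⟩, rfl⟩
        · intro y z hyz
          have := congrArg (fun w : (P' : Subgroup H).subgroupOf K' => ((w : K') : H)) hyz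
          simpa using this
      have := eq_of_le_of_card_ge (H := (P' : Subgroup H).subgroupOf K') (fun y hy => hT' y hy) hle
      rw [← this] at hx
      exact hx
    have hP'K : ∀ x : K', (x : H) ∈ (P' : Subgroup H) → x ∈ (R : Subgroup K') := fun x hx =>
      hR ⟨hP'S ⟨x, hx, rfl⟩, x.2⟩
    rintro _ ⟨_, ⟨x, hx, rfl⟩, rfl⟩
    exact hP'S ⟨_, hRT R hP'K x hx, rfl⟩
  -- Frattini argument inside `H`
  let φ : H →* MulAut Q' := Q'.normalizerMonoidHom
  have hker : ∀ x : H, φ x = 1 ↔ (x : G) ∈ centralizer (Q' : Set G) := fun x => by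
    rw [← MonoidHom.mem_ker, Subgroup.normalizerMonoidHom_ker]
    rfl
  have hKp : IsPGroup p (K'.map φ) := by
    have := isPGroup_map_of_pPrime_trivial (p := p) (φ.comp K'.subtype) ?_
    · rwa [MonoidHom.range_comp, range_subtype] at this
    intro x hx
    refine (hker x).2 (mem_centralizer_iff.2 fun q hq => ?_)
    have hxo : (orderOf ((x : H) : G)).Coprime p := by
      rwa [Subgroup.orderOf_coe, Subgroup.orderOf_coe]
    obtain ⟨⟨-, -, hfix⟩, hxU⟩ := (x.2 : ((x : H) : G) ∈ K)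
    set k := ((x : H) : G)
    set u := k * q * k⁻¹ * q⁻¹ with hu
    have huU : u ∈ U := hfix q hq
    have hpow : ∀ m : ℕ, k ^ m * q * (k ^ m)⁻¹ = u ^ m * q := by
      intro m
      induction m with
      | zero => simp
      | succ m ihm =>
        have hku : k * u ^ m = u ^ m * k :=
          (mem_centralizer_iff.1 hxU _ (pow_mem huU m)).symm
        calc k ^ (m + 1) * q * (k ^ (m + 1))⁻¹ = k * (k ^ m * q * (k ^ m)⁻¹) * k⁻¹ := by
              rw [pow_succ']; group
          _ = k * u ^ m * q * k⁻¹ := by rw [ihm]; group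
          _ = u ^ m * (k * q * k⁻¹) := by rw [hku]; group
          _ = u ^ (m + 1) * q := by rw [pow_succ, hu]; group
    have h1 := hpow (orderOf k)
    rw [pow_orderOf_eq_one, one_mul, inv_one, mul_one] at h1
    have hu1 : u ^ orderOf k = 1 := by simpa using h1.symm
    obtain ⟨j, hj⟩ := hQ'p ⟨u, huU.1⟩
    have h2 : orderOf u ∣ 1 := by
      rw [← (hxo.pow_right j).gcd_eq_one]
      exact Nat.dvd_gcd (orderOf_dvd_of_pow_eq_one hu1)
        (orderOf_dvd_of_pow_eq_one (congrArg Subtype.val hj))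
    have hu0 : k * q * k⁻¹ * q⁻¹ = 1 := orderOf_eq_one_iff.1 (Nat.dvd_one.1 h2)
    rw [mul_inv_eq_one, mul_inv_eq_iff_eq_mul] at hu0
    exact hu0.symm
  set NR := normalizer (((R : Subgroup K').map K'.subtype : Subgroup H) : Set H) with hNR
  have hNp : IsPGroup p (NR.map φ) := by
    have := isPGroup_map_of_pPrime_trivial (p := p) (φ.comp NR.subtype) ?_
    · rwa [MonoidHom.range_comp, range_subtype] at this
    intro x hx
    refine (hker x).2 ?_
    have hTR : T ≤ RG := fun t ht =>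
      ⟨⟨t, ht.2⟩, ⟨⟨⟨t, ht.2⟩, hTK ht⟩, hR ⟨hD.1 ht.1.1, hTK ht⟩, rfl⟩, rfl⟩
    have hxN : ((x : H) : G) ∈ normalizer ((Q' ⊔ T : Subgroup G) : Set G) := by
      have hxT : ((x : H) : G) ∈ normalizer (T : Set G) := mem_normalizer_of_forall fun t ht => by
        obtain ⟨r, hr, hre⟩ := hTR ht
        have h1 := conj_mem_of_mem_normalizer x.2 hr
        have h2 : ((x : H) : G) * t * ((x : H) : G)⁻¹ ∈ RG := ⟨_, h1, by rw [← hre]; rfl⟩
        obtain ⟨_, ⟨y, -, rfl⟩, hye⟩ := h2
        have h3 : ((x : H) : G) * t * ((x : H) : G)⁻¹ ∈ K := hye ▸ y.2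
        exact ⟨⟨hD.2 t ht.1.1 _ (hRGS ⟨_, h1, by rw [← hre]; rfl⟩), h3.2⟩, hKH h3⟩
      have hmap : (Q' ⊔ T).map (MulAut.conj ((x : H) : G)).toMonoidHom ≤ Q' ⊔ T := by
        rw [Subgroup.map_sup]
        refine sup_le_sup ?_ ?_
        · rintro _ ⟨q, hq, rfl⟩
          exact conj_mem_of_mem_normalizer (x : H).2 hq
        · rintro _ ⟨t, ht, rfl⟩
          exact conj_mem_of_mem_normalizer hxT ht
      exact mem_normalizer_of_forall fun k hk => hmap ⟨k, hk, rfl⟩
    have hlt : Q' < Q' ⊔ T := lt_of_le_of_ne le_sup_left fun he => hTQ (he ▸ le_sup_right)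
    have hlt' : Nat.card G - Nat.card (Q' ⊔ T : Subgroup G) < Nat.card G - Nat.card Q := by
      have h1 : Nat.card Q' < Nat.card (Q' ⊔ T : Subgroup G) := by
        by_contra hge
        exact hlt.ne (eq_of_le_of_card_ge hlt.le (not_lt.1 hge))
      have h2 := card_le_card_group (Q' ⊔ T)
      omega
    have := ih _ hlt' (Q' ⊔ T) rfl (sup_le hQc (fun t ht => hD.1 ht.1.1)) _ hxN
      (by rwa [Subgroup.orderOf_coe, Subgroup.orderOf_coe])
    exact centralizer_le (le_sup_left : Q' ≤ Q' ⊔ T) this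
  have htop : NR ⊔ K' = ⊤ := R.normalizer_sup_eq_top
  have hall : IsPGroup p φ.range := by
    rw [MonoidHom.range_eq_map, ← htop, Subgroup.map_sup]
    refine hNp.to_sup_of_normal_right' hKp ?_
    exact (map_mono (le_top.trans (normalizer_eq_top (H := K')).ge)).trans (le_normalizer_map φ)
  obtain ⟨j, hj⟩ := hall ⟨φ ⟨g, hg⟩, _, rfl⟩
  refine (hker ⟨g, hg⟩).1 (orderOf_eq_one_iff.1 (Nat.dvd_one.1 ?_))
  rw [← (hgp.pow_right j).gcd_eq_one]
  refine Nat.dvd_gcd ?_ (orderOf_dvd_of_pow_eq_one (congrArg Subtype.val hj))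
  exact (orderOf_map_dvd φ _).trans (dvd_of_eq (Subgroup.orderOf_coe _).symm)

end Cfsg.Agent.H84
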