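import Mathlib

/-! An abelian group of automorphisms moved by `σ`: the fixed points of `σ` are few. -/

set_option autoImplicit false

namespace Cfsg.Agent.H84

variable {V : Type*} [CommGroup V] [Finite V]

/-- The product of the translates under a finite group of automorphisms. -/
noncomputable def autNorm (B : Subgroup (MulAut V)) : V →* V :=
  haveI : Finite (MulAut V) := Finite.of_injective (fun f => (⇑f : V → V)) DFunLike.coe_injective
  haveI := Fintype.ofFinite B
  ∏ b : B, ((b : MulAut V) : V →* V)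

theorem autNorm_apply (B : Subgroup (MulAut V)) [Fintype B] (v : V) :
    autNorm B v = ∏ b : B, (b : MulAut V) v := by
  rw [autNorm, MonoidHom.finsetProd_apply]
  exact Finset.prod_congr (by ext; simp) fun _ _ => rfl

theorem autNorm_fixed (B : Subgroup (MulAut V)) {a : MulAut V} (ha : a ∈ B) (v : V) :
    a (autNorm B v) = autNorm B v := by
  haveI : Finite (MulAut V) := Finite.of_injective (fun f => (⇑f : V → V)) DFunLike.coe_injective
  haveI := Fintype.ofFinite B
  rw [autNorm_apply, map_prod]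
  exact Fintype.prod_equiv (Equiv.mulLeft (⟨a, ha⟩ : B)) _ _ fun b => rfl

theorem autNorm_of_fixed (B : Subgroup (MulAut V)) {v : V} (hv : ∀ b ∈ B, (b : MulAut V) v = v) :
    autNorm B v = v ^ Nat.card B := by
  haveI : Finite (MulAut V) := Finite.of_injective (fun f => (⇑f : V → V)) DFunLike.coe_injective
  haveI := Fintype.ofFinite B
  rw [autNorm_apply, Finset.prod_congr rfl (fun (b : B) _ => hv (b : MulAut V) b.2), Finset.prod_const,
    Finset.card_univ, Nat.card_eq_fintype_card]

theorem autNorm_commute (B : Subgroup (MulAut V)) {a : MulAut V}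
    (ha : ∀ b ∈ B, a * b = b * a) (v : V) : a (autNorm B v) = autNorm B (a v) := by
  haveI : Finite (MulAut V) := Finite.of_injective (fun f => (⇑f : V → V)) DFunLike.coe_injective
  haveI := Fintype.ofFinite B
  rw [autNorm_apply, autNorm_apply, map_prod]
  refine Finset.prod_congr rfl fun b _ => ?_
  rw [← MulAut.mul_apply, ha b b.2, MulAut.mul_apply]

theorem autNorm_conj (B : Subgroup (MulAut V)) (s : MulAut V) (v : V) :
    s (autNorm B v) = autNorm (B.map (MulAut.conj s).toMonoidHom) (s v) := by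
  haveI : Finite (MulAut V) := Finite.of_injective (fun f => (⇑f : V → V)) DFunLike.coe_injective
  haveI := Fintype.ofFinite B
  haveI := Fintype.ofFinite (B.map (MulAut.conj s).toMonoidHom)
  rw [autNorm_apply, autNorm_apply, map_prod]
  refine Fintype.prod_equiv (B.equivMapOfInjective _ (MulAut.conj s).injective).toEquiv _ _ fun b => ?_
  show s ((b : MulAut V) v) = (s * (b : MulAut V) * s⁻¹) (s v)
  rw [MulAut.mul_apply, MulAut.mul_apply, MulAut.inv_apply_self]

/-- `|C_V(σ)| ^ 3 ≤ |V|` when an abelian group `A` of order prime to `|V|`, normalised by `σ`, with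
`C_A(σ) = 1` and no proper `σ`-invariant subgroup, makes `V` irreducible with `C_V(A) = 1`. -/
theorem fixed_cube_le {p : ℕ} [hpF : Fact p.Prime] (hp : p ≠ 2) (σ : MulAut V) (hσ : σ ^ p = 1)
    (A : Subgroup (MulAut V)) (hA0 : A ≠ ⊥) (hcop : (Nat.card A).Coprime (Nat.card V))
    (hab : ∀ a ∈ A, ∀ b ∈ A, a * b = b * a)
    (hAσ : A.map (MulAut.conj σ).toMonoidHom = A)
    (hfixA : ∀ a ∈ A, σ * a = a * σ → a = 1)
    (hirrA : ∀ B ≤ A, B.map (MulAut.conj σ).toMonoidHom = B → B = ⊥ ∨ B = A)
    (hVA : ∀ v : V, (∀ a ∈ A, (a : MulAut V) v = v) → v = 1)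
    (hirrV : ∀ U : Subgroup V, (∀ a ∈ A, ∀ v ∈ U, (a : MulAut V) v ∈ U) →
      (∀ v ∈ U, σ v ∈ U) → U = ⊥ ∨ U = ⊤) (hV : Nontrivial V) :
    Nat.card {v : V // σ v = v} ^ 3 ≤ Nat.card V := by
  classical
  haveI : Finite (MulAut V) := Finite.of_injective (fun f => (⇑f : V → V)) DFunLike.coe_injective
  have hp3 : 3 ≤ p := by have := hpF.out.two_le; omega
  let C : Subgroup V := MonoidHom.eqLocus (σ : V →* V) (MonoidHom.id V)
  have hC : ∀ v, v ∈ C ↔ σ v = v := fun v => Iff.rfl
  suffices hinj : ∃ f : C × C × C →* V, Function.Injective f by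
    obtain ⟨f, hf⟩ := hinj
    refine le_trans (le_of_eq ?_) (Nat.card_le_card_of_injective f hf)
    rw [Nat.card_prod, Nat.card_prod, show Nat.card C = Nat.card {v : V // σ v = v} from rfl]
    ring
  have hσC : ∀ (i : ℕ) (c : C), (σ ^ i) (c : V) = c := fun i c => by
    induction i with
    | zero => rfl
    | succ i ih => rw [pow_succ', MulAut.mul_apply, ih, (hC _).1 c.2]
  let cl : Subgroup (MulAut V) → Subgroup V := fun B =>
    ⨅ b : B, MonoidHom.eqLocus ((b : MulAut V) : V →* V) (MonoidHom.id V)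
  have hcl : ∀ (B : Subgroup (MulAut V)) v, v ∈ cl B ↔ ∀ b ∈ B, (b : MulAut V) v = v :=
    fun B v => by
      simp only [cl, Subgroup.mem_iInf]
      exact ⟨fun h b hb => h ⟨b, hb⟩, fun h b => h b b.2⟩
  obtain ⟨B, ⟨hBA, hB0⟩, hBmax⟩ := Set.Finite.exists_maximal
    (Set.toFinite {B : Subgroup (MulAut V) | B ≤ A ∧ cl B ≠ ⊥})
    ⟨⊥, bot_le, fun h => by
      obtain ⟨v, hv⟩ := exists_ne (1 : V)
      refine hv ((Subgroup.mem_bot (G := V)).1 (h ▸ (hcl ⊥ v).2 fun b hb => ?_))
      rw [(Subgroup.mem_bot (G := MulAut V)).1 hb]; rfl⟩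
  have hmax : ∀ B' ≤ A, B ≤ B' → cl B' ≠ ⊥ → B' = B := fun B' h1 h2 h3 =>
    le_antisymm (hBmax ⟨h1, h3⟩ h2) h2
  set tw : MulAut V →* MulAut V := (MulAut.conj σ).toMonoidHom with htw
  by_cases hBσ : B.map tw = B
  · -- fixed-point-free action
    have hBbot : B = ⊥ := by
      refine (hirrA B hBA hBσ).resolve_right fun h => hB0 ?_
      rw [h, Subgroup.eq_bot_iff_forall]
      exact fun v hv => hVA v ((hcl A v).1 hv)
    have hfpf : ∀ a ∈ A, a ≠ 1 → ∀ v, (a : MulAut V) v = v → v = 1 := by
      intro a ha ha1 v hv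
      by_contra hne
      have h := hmax (Subgroup.zpowers a) (Subgroup.zpowers_le.2 ha) (hBbot ▸ bot_le) fun h =>
        hne ((Subgroup.mem_bot (G := V)).1 (h ▸ (hcl _ v).2 fun b hb => by
          obtain ⟨i, rfl⟩ := (Submonoid.mem_powers_iff _ _).1 (mem_powers_iff_mem_zpowers.2 hb)
          induction i with
          | zero => rfl
          | succ i ih => rw [pow_succ', MulAut.mul_apply, ih (pow_mem (Subgroup.mem_zpowers a) _), hv]))
      rw [hBbot, Subgroup.zpowers_eq_bot] at h
      exact ha1 h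
    obtain ⟨a0, ha0, ha01⟩ : ∃ a ∈ A, a ≠ 1 := by
      by_contra hcon
      push Not at hcon
      exact hA0 ((Subgroup.eq_bot_iff_forall A).2 hcon)
    set a1 := σ * a0 * σ⁻¹ with ha1
    set a2 := σ * a1 * σ⁻¹ with ha2
    have ha1A : a1 ∈ A := hAσ.le ⟨a0, ha0, rfl⟩
    have ha2A : a2 ∈ A := hAσ.le ⟨a1, ha1A, rfl⟩
    have h01 : a0 ≠ a1 := fun h => ha01 (hfixA a0 ha0 (by
      conv_rhs => rw [h, ha1]
      group))
    have h02 : a0 ≠ a2 := fun h => ha01 (hfixA a0 ha0 (by
      have hc : Commute (σ ^ 2) a0 := by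
        show σ ^ 2 * a0 = a0 * σ ^ 2
        calc σ ^ 2 * a0 = (σ * (σ * a0 * σ⁻¹) * σ⁻¹) * σ ^ 2 := by rw [pow_two]; group
          _ = a0 * σ ^ 2 := by rw [← ha1, ← ha2, ← h]
      obtain ⟨m, hm⟩ := hpF.out.odd_of_ne_two hp
      have e : σ = (σ ^ 2) ^ (m + 1) := by
        rw [← pow_mul, show 2 * (m + 1) = p + 1 by omega, pow_succ, hσ, one_mul]
      rw [e]
      exact (hc.pow_left _).eq))
    have h12 : a1 ≠ a2 := fun h => h01 (by
      rw [ha2, ha1] at h
      rw [ha1]
      exact mul_left_cancel (mul_right_cancel h))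
    have hker : ∀ α ∈ A, ∀ β ∈ A, α ≠ β → ∀ v, (α : MulAut V) v = (β : MulAut V) v → v = 1 := by
      intro α hα β hβ hne v hv
      refine hfpf (β⁻¹ * α) (mul_mem (inv_mem hβ) hα) (fun h => hne (inv_mul_eq_one.1 h).symm) v ?_
      rw [MulAut.mul_apply, hv, MulAut.inv_apply_self]
    refine ⟨MonoidHom.mk' (fun c => (c.1 : V) * a0 (c.2.1 : V) * a0 (a0 (c.2.2 : V))) (fun c d => by
      simp only [Prod.fst_mul, Prod.snd_mul, Subgroup.coe_mul, map_mul]
      ac_rfl), (injective_iff_map_eq_one _).2 fun c hc => ?_⟩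
    obtain ⟨c0, c1, c2⟩ := c
    replace hc : (c0 : V) * a0 c1 * a0 (a0 c2) = 1 := hc
    have happ : ∀ α : MulAut V, (c0 : V) * α c1 * α (α c2) = 1 →
        (c0 : V) * (σ * α * σ⁻¹) c1 * (σ * α * σ⁻¹) ((σ * α * σ⁻¹) c2) = 1 := by
      intro α h
      have h' := congrArg σ h
      rw [map_mul, map_mul, map_one, (hC _).1 c0.2] at h'
      have e : ∀ v, (σ * α * σ⁻¹) (σ v) = σ (α v) := fun v => by
        rw [MulAut.mul_apply, MulAut.mul_apply, MulAut.inv_apply_self]
      conv_lhs => rw [← (hC _).1 c1.2, ← (hC _).1 c2.2, e, e, e]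
      exact h'
    have hc1 := happ a0 hc
    have hc2 := happ a1 hc1
    rw [← ha1] at hc1
    rw [← ha2] at hc2
    have hstep : ∀ β ∈ A, a0 ≠ β → (c0 : V) * β c1 * β (β c2) = 1 →
        (c1 : V) * a0 c2 * β c2 = 1 := by
      intro β hβ hne h
      refine hker a0 ha0 β hβ hne _ ?_
      have e : a0 (β (c2 : V)) = β (a0 c2) := by
        rw [← MulAut.mul_apply, hab a0 ha0 β hβ, MulAut.mul_apply]
      have h3 : a0 (c1 : V) * a0 (a0 c2) = β c1 * β (β c2) :=
        mul_left_cancel (a := (c0 : V)) (by rw [← mul_assoc, ← mul_assoc, hc, h])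
      rw [map_mul, map_mul, map_mul, map_mul, e, h3]
      ac_rfl
    have hB1 := hstep a1 ha1A h01 hc1
    have hB2 := hstep a2 ha2A h02 hc2
    have hc20 : (c2 : V) = 1 := hker a1 ha1A a2 ha2A h12 _
      (mul_left_cancel (hB1.trans hB2.symm))
    rw [hc20, map_one, map_one, mul_one, mul_one] at hB1
    rw [hB1, hc20, map_one, map_one, mul_one, mul_one] at hc
    exact Prod.ext (Subtype.ext hc) (Prod.ext (Subtype.ext hB1) (Subtype.ext hc20))
  -- the translates of a maximal kernel
  let Bi : ℕ → Subgroup (MulAut V) := fun i => (fun S => Subgroup.map tw S)^[i] B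
  have hBisucc : ∀ i, Bi (i + 1) = (Bi i).map tw := fun i => Function.iterate_succ_apply' _ i B
  have hmap : ∀ i, Bi i = B.map (MulAut.conj (σ ^ i)).toMonoidHom := by
    intro i
    induction i with
    | zero =>
      refine (Subgroup.map_id B).symm.trans (congrArg (fun f => Subgroup.map f B) ?_)
      ext b v; simp
    | succ i ih =>
      rw [hBisucc, ih, Subgroup.map_map]
      refine congrArg (fun f => Subgroup.map f B) ?_
      ext b v; simp [htw, pow_succ']
  have hperiod : Function.IsPeriodicPt (fun S => Subgroup.map tw S) p B := by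
    show Bi p = B
    rw [hmap, hσ]
    refine (congrArg (fun f => Subgroup.map f B) ?_).trans (Subgroup.map_id B)
    ext b v; simp
  have hmin : Function.minimalPeriod (fun S => Subgroup.map tw S) B = p :=
    Function.minimalPeriod_eq_prime hperiod hBσ
  have hdist : ∀ i < p, ∀ l < p, Bi i = Bi l → i = l := fun i hi l hl h =>
    Function.iterate_injOn_Iio_minimalPeriod (by rw [hmin]; exact hi) (by rw [hmin]; exact hl) h
  have hBiA : ∀ i, Bi i ≤ A := by
    intro i
    induction i with
    | zero => exact hBA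
    | succ i ih => rw [hBisucc]; exact (Subgroup.map_mono ih).trans hAσ.le
  have hclσ : ∀ S v, v ∈ cl S → σ v ∈ cl (S.map tw) := fun S v hv => (hcl _ _).2 (by
    rintro _ ⟨b, hb, rfl⟩
    show (σ * b * σ⁻¹) (σ v) = σ v
    rw [MulAut.mul_apply, MulAut.mul_apply, MulAut.inv_apply_self, (hcl _ _).1 hv b hb])
  have hcl0 : ∀ i < p, ∀ l < p, i ≠ l → ∀ v ∈ cl (Bi i), v ∈ cl (Bi l) → v = 1 := by
    intro i hi l hl hne v hvi hvl
    by_contra hv1
    have hvil : v ∈ cl (Bi i ⊔ Bi l) := (hcl _ _).2 fun b hb => by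
      let St : Subgroup (MulAut V) :=
        { carrier := {b | (b : MulAut V) v = v}
          one_mem' := rfl
          mul_mem' := fun {a b} ha hb => by
            show (a * b) v = v
            rw [MulAut.mul_apply, show b v = v from hb]; exact ha
          inv_mem' := fun {a} ha => by
            show a⁻¹ v = v
            conv_lhs => rw [← show a v = v from ha]
            exact MulEquiv.symm_apply_apply a v }
      exact (sup_le (c := St) ((hcl _ v).1 hvi) ((hcl _ v).1 hvl)) hb
    -- transport the maximality back to `B`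
    obtain ⟨i', hi'⟩ : ∃ i', i + i' = p := ⟨p - i, by omega⟩
    set T := ((fun S => Subgroup.map tw S)^[i']) (Bi i ⊔ Bi l) with hT
    have hTle : ∀ (m : ℕ) (S : Subgroup (MulAut V)), S ≤ A →
        ((fun S => Subgroup.map tw S)^[m]) S ≤ A := by
      intro m S hS
      induction m with
      | zero => exact hS
      | succ m ih => rw [Function.iterate_succ_apply']; exact (Subgroup.map_mono ih).trans hAσ.le
    have hmono : ∀ (m : ℕ), Monotone ((fun S => Subgroup.map tw S)^[m]) := fun m =>
      Monotone.iterate (fun _ _ h => Subgroup.map_mono h) m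
    have hinjm : Function.Injective ((fun S => Subgroup.map tw S)^[i']) :=
      (Subgroup.map_injective (MulAut.conj σ).injective).iterate i'
    have hBT : B ≤ T := by
      have h := hmono i' (le_sup_left : Bi i ≤ Bi i ⊔ Bi l)
      rw [show ((fun S => Subgroup.map tw S)^[i']) (Bi i) = B by
        show ((fun S => Subgroup.map tw S)^[i']) (((fun S => Subgroup.map tw S)^[i]) B) = B
        rw [← Function.iterate_add_apply, add_comm, hi']; exact hperiod] at h
      exact h
    have hclm : ∀ (m : ℕ) S, v ∈ cl S → (σ ^ m) v ∈ cl (((fun S => Subgroup.map tw S)^[m]) S) := by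
      intro m S hS
      induction m with
      | zero => exact hS
      | succ m ih =>
        rw [pow_succ', MulAut.mul_apply, Function.iterate_succ_apply']
        exact hclσ _ _ ih
    have hTB : T = B := hmax T (hTle _ _ (sup_le (hBiA i) (hBiA l))) hBT fun h => hv1 (by
      have := hclm i' _ hvil
      rw [← hT, h, Subgroup.mem_bot] at this
      exact (σ ^ i').injective (this.trans (map_one _).symm))
    have hsame : Bi i ⊔ Bi l = Bi i := hinjm (by
      show T = _
      rw [hTB]
      show B = ((fun S => Subgroup.map tw S)^[i']) (((fun S => Subgroup.map tw S)^[i]) B)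
      rw [← Function.iterate_add_apply, add_comm, hi']; exact hperiod.symm)
    refine hne (hdist i hi l hl (Subgroup.eq_of_le_of_card_ge (sup_eq_left.1 hsame) ?_).symm)
    rw [hmap, hmap, Subgroup.card_map_of_injective (MulAut.conj (σ ^ i)).injective,
      Subgroup.card_map_of_injective (MulAut.conj (σ ^ l)).injective]
  have hcard : ∀ i, Nat.card (Bi i) = Nat.card B := fun i => by
    rw [hmap, Subgroup.card_map_of_injective (MulAut.conj (σ ^ i)).injective]
  have hncop : (Nat.card B).Coprime (Nat.card V) :=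
    hcop.coprime_dvd_left (Subgroup.card_dvd_of_le hBA)
  have hroot : ∀ v : V, v ^ Nat.card B = 1 → v = 1 := fun v hv =>
    orderOf_eq_one_iff.1 (Nat.eq_one_of_dvd_coprimes hncop (orderOf_dvd_of_pow_eq_one hv)
      (orderOf_dvd_natCard v))
  have hNmem : ∀ i v, autNorm (Bi i) v ∈ cl (Bi i) := fun i v =>
    (hcl _ _).2 fun b hb => autNorm_fixed _ hb v
  have hNN : ∀ i < p, ∀ l < p, i ≠ l → ∀ v ∈ cl (Bi l), autNorm (Bi i) v = 1 := by
    intro i hi l hl hne v hv
    refine hcl0 i hi l hl hne _ (hNmem i v) ((hcl _ _).2 fun b hb => ?_)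
    rw [autNorm_commute _ (fun b' hb' => hab b (hBiA l hb) b' (hBiA i hb')),
      (hcl _ _).1 hv b hb]
  have hNσ : ∀ i (c : C), σ (autNorm (Bi i) c) = autNorm (Bi (i + 1)) c := fun i c => by
    rw [autNorm_conj, (hC _).1 c.2, hBisucc]
  have hzero : ∀ c : C, ∀ i < p, autNorm (Bi i) (c : V) = 1 → (c : V) = 1 := by
    intro c i hi hc
    have hall : ∀ m, autNorm (Bi (i + m)) (c : V) = 1 := by
      intro m
      induction m with
      | zero => exact hc
      | succ m ih => rw [← add_assoc, ← hNσ, ih, map_one]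
    have hl : ∀ l < p, autNorm (Bi l) (c : V) = 1 := fun l hl' => by
      have h := hall (p - i + l)
      rwa [show i + (p - i + l) = l + p by omega, show Bi (l + p) = Bi l from by
        show ((fun S => Subgroup.map tw S)^[l + p]) B = _
        rw [Function.iterate_add_apply]
        exact congrArg _ hperiod] at h
    set f : V →* V := ∏ l ∈ Finset.range p, autNorm (Bi l) with hf
    set U : Subgroup V := ⨆ l ∈ Finset.range p, cl (Bi l) with hU
    have hfU : U ≤ MonoidHom.eqLocus f (powMonoidHom (Nat.card B)) := iSup₂_le fun l hl v hv => by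
      show f v = v ^ Nat.card B
      rw [hf, MonoidHom.finsetProd_apply, Finset.prod_eq_single l
        (fun i hi hne => hNN i (Finset.mem_range.1 hi) l (Finset.mem_range.1 hl) hne v hv)
        (fun h => absurd hl h), autNorm_of_fixed _ ((hcl _ _).1 hv), hcard]
    have hUtop : U = ⊤ := by
      refine (hirrV U (fun a ha v hv => ?_) (fun v hv => ?_)).resolve_left fun h => hB0 ?_
      · have hle : U ≤ U.comap ((a : MulAut V) : V →* V) := iSup₂_le fun l hl w hw =>
          le_iSup₂ (f := fun l (_ : l ∈ Finset.range p) => cl (Bi l)) l hl ((hcl _ _).2 fun b hb => by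
            show b ((a : MulAut V) w) = (a : MulAut V) w
            rw [← MulAut.mul_apply, hab b (hBiA l hb) a ha, MulAut.mul_apply, (hcl _ _).1 hw b hb])
        exact hle hv
      · have hle : U ≤ U.comap (σ : V →* V) := iSup₂_le fun l hl w hw => by
          have h := hclσ _ _ hw
          rw [← hBisucc] at h
          rcases Nat.lt_or_ge (l + 1) p with hlp | hlp
          · exact le_iSup₂ (f := fun l (_ : l ∈ Finset.range p) => cl (Bi l)) (l + 1)
              (Finset.mem_range.2 hlp) h
          · refine le_iSup₂ (f := fun l (_ : l ∈ Finset.range p) => cl (Bi l)) 0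
              (Finset.mem_range.2 hpF.out.pos) ?_
            rw [show l + 1 = p by have := Finset.mem_range.1 hl; omega, show Bi p = B from hperiod] at h
            exact h
        exact hle hv
      · rw [eq_bot_iff, ← h]
        exact le_iSup₂ (f := fun l (_ : l ∈ Finset.range p) => cl (Bi l)) 0
          (Finset.mem_range.2 hpF.out.pos)
    refine hroot _ ?_
    have h : f (c : V) = (c : V) ^ Nat.card B := hfU (hUtop ▸ Subgroup.mem_top (c : V))
    rw [show f (c : V) = 1 by
      rw [hf, MonoidHom.finsetProd_apply]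
      exact Finset.prod_eq_one fun l hl' => hl l (Finset.mem_range.1 hl')] at h
    exact (Eq.symm h : _)
  refine ⟨MonoidHom.mk' (fun c => autNorm (Bi 0) (c.1 : V) * autNorm (Bi 1) (c.2.1 : V) *
    autNorm (Bi 2) (c.2.2 : V)) (fun c d => by
      simp only [Prod.fst_mul, Prod.snd_mul, Subgroup.coe_mul, map_mul]
      ac_rfl), (injective_iff_map_eq_one _).2 fun c hc => ?_⟩
  obtain ⟨c0, c1, c2⟩ := c
  set u0 := autNorm (Bi 0) (c0 : V)
  set u1 := autNorm (Bi 1) (c1 : V)
  set u2 := autNorm (Bi 2) (c2 : V)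
  replace hc : u0 * u1 * u2 = 1 := hc
  have hproj : ∀ i < 3, ∀ u ∈ cl (Bi i), autNorm (Bi i) u = u ^ Nat.card B := fun i _ u hu => by
    rw [autNorm_of_fixed _ ((hcl _ _).1 hu), hcard]
  have g0 := congrArg (autNorm (Bi 0)) hc
  rw [map_mul, map_mul, map_one, hproj 0 (by omega) u0 (hNmem 0 _),
    hNN 0 (by omega) 1 (by omega) (by omega) u1 (hNmem 1 _),
    hNN 0 (by omega) 2 (by omega) (by omega) u2 (hNmem 2 _), mul_one, mul_one] at g0
  have g1 := congrArg (autNorm (Bi 1)) hc
  rw [map_mul, map_mul, map_one, hproj 1 (by omega) u1 (hNmem 1 _),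
    hNN 1 (by omega) 0 (by omega) (by omega) u0 (hNmem 0 _),
    hNN 1 (by omega) 2 (by omega) (by omega) u2 (hNmem 2 _), mul_one, one_mul] at g1
  have g2 := congrArg (autNorm (Bi 2)) hc
  rw [map_mul, map_mul, map_one, hproj 2 (by omega) u2 (hNmem 2 _),
    hNN 2 (by omega) 0 (by omega) (by omega) u0 (hNmem 0 _),
    hNN 2 (by omega) 1 (by omega) (by omega) u1 (hNmem 1 _), one_mul, one_mul] at g2
  exact Prod.ext (Subtype.ext (hzero c0 0 (by omega) (hroot _ g0)))
    (Prod.ext (Subtype.ext (hzero c1 1 (by omega) (hroot _ g1)))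
      (Subtype.ext (hzero c2 2 (by omega) (hroot _ g2))))

end Cfsg.Agent.H84
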