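import Cfsg.Agent.H6.Torus

/-!
For a field of `q ≡ 3 (mod 4)` elements of characteristic three, the extensions of the module
`natural ⊗ natural^(3)` (any number of copies) by `C₂ × PSL₂(q)`, the involution inverting the module.
Their element orders are the divisors of `6`, `9`, `q - 1` and `(q + 1) / 2`.
-/

set_option autoImplicit false

open Matrix MatrixGroups Cfsg.Agent.H6

namespace Cfsg.Agent.H84.ReeCube

section Semidirect

variable {N G : Type*} [CommGroup N] [Group G] {φ : G →* MulAut N}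

theorem pow_right (y : N ⋊[φ] G) (n : ℕ) : (y ^ n).right = y.right ^ n :=
  map_pow SemidirectProduct.rightHom y n

theorem pow_eq_inl (y : N ⋊[φ] G) {n : ℕ} (hn : y.right ^ n = 1) :
    y ^ n = SemidirectProduct.inl (y ^ n).left :=
  SemidirectProduct.ext rfl (by rw [pow_right, hn]; rfl)

theorem pow_eq_one_of_fpf (y : N ⋊[φ] G) {n : ℕ} (hn : y.right ^ n = 1)
    (hfix : ∀ w : N, φ y.right w = w → w = 1) : y ^ n = 1 := by
  have h := congrArg SemidirectProduct.left (pow_mul_comm' y n)
  simp only [SemidirectProduct.mul_left, pow_right, hn, map_one, MulAut.one_apply] at h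
  have hw : (y ^ n).left = 1 := by
    apply hfix
    rw [mul_comm (y ^ n).left y.left] at h
    exact (mul_left_cancel h).symm
  rw [pow_eq_inl y hn, hw, map_one]

theorem pow_three_mul_eq_one (h3 : ∀ w : N, w ^ 3 = 1) (y : N ⋊[φ] G) {n : ℕ} (hn : y.right ^ n = 1) :
    y ^ (n * 3) = 1 := by
  rw [pow_mul, pow_eq_inl y hn, ← map_pow, h3, map_one]

end Semidirect

variable {K : Type*} [Field K] [CharP K 3]

/-- The second factor: the transpose of the Frobenius twist. -/
def frobT (g : SL(2, K)) : Matrix (Fin 2) (Fin 2) K :=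
  ((SpecialLinearGroup.map (frobenius K 3) g : SL(2, K)) : Matrix (Fin 2) (Fin 2) K)ᵀ

theorem frobT_one : frobT (1 : SL(2, K)) = 1 := by simp [frobT]

theorem frobT_mul (g h : SL(2, K)) : frobT (g * h) = frobT h * frobT g := by
  simp [frobT, Matrix.transpose_mul]

theorem frobT_apply (g : SL(2, K)) (i j : Fin 2) : frobT g i j = g j i ^ 3 := by
  simp [frobT, SpecialLinearGroup.map_apply_coe, frobenius_def]

/-- The sign as a scalar. -/
def sgn (ε : ℤˣ) : K := ((ε : ℤ) : K)

theorem sgn_mul (ε δ : ℤˣ) : (sgn (ε * δ) : K) = sgn ε * sgn δ := by simp [sgn]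

/-- The action on one copy of the module. -/
def act₁ (x : SL(2, K) × ℤˣ) (X : Matrix (Fin 2) (Fin 2) K) : Matrix (Fin 2) (Fin 2) K :=
  (sgn x.2 : K) • ((x.1 : Matrix (Fin 2) (Fin 2) K) * X * frobT x.1)

theorem act₁_mul (x y : SL(2, K) × ℤˣ) (X : Matrix (Fin 2) (Fin 2) K) :
    act₁ (x * y) X = act₁ x (act₁ y X) := by
  simp [act₁, frobT_mul, sgn_mul, mul_smul, Matrix.mul_assoc]

theorem act₁_one (X : Matrix (Fin 2) (Fin 2) K) : act₁ (1 : SL(2, K) × ℤˣ) X = X := by
  simp [act₁, frobT_one, sgn]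

theorem act₁_add (x : SL(2, K) × ℤˣ) (X Y : Matrix (Fin 2) (Fin 2) K) :
    act₁ x (X + Y) = act₁ x X + act₁ x Y := by
  simp [act₁, Matrix.mul_add, Matrix.add_mul]

theorem act₁_zero (x : SL(2, K) × ℤˣ) : act₁ x (0 : Matrix (Fin 2) (Fin 2) K) = 0 := by
  simp [act₁]

variable (K) in
/-- The module: `k` copies. -/
abbrev V (k : ℕ) := Fin k → Matrix (Fin 2) (Fin 2) K

variable {k : ℕ}

/-- The action as automorphisms. -/
def phi : SL(2, K) × ℤˣ →* MulAut (Multiplicative (V K k)) where
  toFun x :=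
    { toFun := fun v => Multiplicative.ofAdd fun i => act₁ x (v.toAdd i)
      invFun := fun v => Multiplicative.ofAdd fun i => act₁ x⁻¹ (v.toAdd i)
      left_inv := fun v => by
        refine Multiplicative.toAdd.injective (funext fun i => ?_)
        simp only [toAdd_ofAdd]
        rw [← act₁_mul, inv_mul_cancel, act₁_one]
      right_inv := fun v => by
        refine Multiplicative.toAdd.injective (funext fun i => ?_)
        simp only [toAdd_ofAdd]
        rw [← act₁_mul, mul_inv_cancel, act₁_one]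
      map_mul' := fun v w => by
        refine Multiplicative.toAdd.injective (funext fun i => ?_)
        simp [act₁_add] }
  map_one' := MulEquiv.ext fun v => Multiplicative.toAdd.injective (funext fun i => by simp [act₁_one])
  map_mul' x y := MulEquiv.ext fun v =>
    Multiplicative.toAdd.injective (funext fun i => by simp [act₁_mul])

theorem phi_apply (x : SL(2, K) × ℤˣ) (v : Multiplicative (V K k)) (i : Fin k) :
    (phi x v).toAdd i = act₁ x (v.toAdd i) := rfl

theorem phi_eq_one {g : SL(2, K)} (hg : g = 1 ∨ g = -1) :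
    (phi ((g, 1) : SL(2, K) × ℤˣ) : MulAut (Multiplicative (V K k))) = 1 := by
  refine MulEquiv.ext fun v => Multiplicative.toAdd.injective (funext fun i => ?_)
  rw [phi_apply, MulAut.one_apply]
  rcases hg with rfl | rfl
  · exact act₁_one _
  · rw [act₁]
    have h1 : frobT (-1 : SL(2, K)) = -1 := by
      ext i j; fin_cases i <;> fin_cases j <;> simp [frobT_apply, sl2_neg, ← frobenius_def, map_neg]
    simp [sgn, h1]

theorem phi_pow_eq_one {g : SL(2, K)} (ε : ℤˣ) {n : ℕ} (hg : g ^ n = 1 ∨ g ^ n = -1) (hn : Even n ∨ ε = 1) :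
    (phi (g, ε) : MulAut (Multiplicative (V K k))) ^ n = 1 := by
  rw [← map_pow, Prod.pow_mk]
  have hε : ε ^ n = 1 := by
    rcases hn with ⟨r, rfl⟩ | rfl
    · rw [← two_mul, pow_mul, Int.units_sq, one_pow]
    · exact one_pow n
  rw [hε]
  exact phi_eq_one hg

theorem frobT_sq (g : SL(2, K)) : frobT g * frobT g = tr g ^ 3 • frobT g - 1 := by
  rw [← frobT_mul]
  ext i j
  rw [Matrix.sub_apply, Matrix.smul_apply, frobT_apply, frobT_apply, smul_eq_mul, sl2_sq,
    ← frobenius_def, ← frobenius_def, ← frobenius_def, map_sub, map_mul]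
  congr 1
  fin_cases i <;> fin_cases j <;> simp

theorem coe_sq (g : SL(2, K)) :
    (g : Matrix (Fin 2) (Fin 2) K) * (g : Matrix (Fin 2) (Fin 2) K) =
      tr g • (g : Matrix (Fin 2) (Fin 2) K) - 1 := by
  ext i j
  have := sl2_sq g i j
  simpa using this

section Field

variable [Fintype K]

/-- The trace of an element fixing a nonzero vector. -/
theorem trace_of_fixed (hq : Fintype.card K % 4 = 3) {g : SL(2, K)} {ε : ℤˣ}
    {X : Matrix (Fin 2) (Fin 2) K} (hX : X ≠ 0) (h : act₁ (g, ε) X = X) :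
    tr g = 0 ∨ (tr g ^ 2 = 4 ∧ ε = 1) := by
  set A : Matrix (Fin 2) (Fin 2) K := (g : Matrix (Fin 2) (Fin 2) K)
  set C : Matrix (Fin 2) (Fin 2) K := frobT g
  set e : K := sgn ε
  set s := tr g
  have he : e * e = 1 := by
    rcases Int.units_eq_one_or ε with rfl | rfl <;> simp [e, sgn]
  have h1 : A * X * C = e • X := by
    have h' : e • (A * X * C) = X := h
    conv_rhs => rw [← h', smul_smul, he, one_smul]
  have h2 : A * A * X * (C * C) = X := by
    have : A * A * X * (C * C) = A * (A * X * C) * C := by simp only [Matrix.mul_assoc]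
    rw [this, h1, Matrix.mul_smul, Matrix.smul_mul, h1, smul_smul, he, one_smul]
  have key : (s * e - s ^ 3) • (X * C) = 0 := by
    have h3 : (s • A - 1) * X * (C * C) = X := by rw [← coe_sq]; exact h2
    have h4 : (s • A - 1) * X * (C * C) = s • ((A * X * C) * C) - X * (C * C) := by
      simp only [Matrix.sub_mul, Matrix.smul_mul, Matrix.one_mul, Matrix.mul_assoc]
    rw [h4, h1, Matrix.smul_mul, smul_smul, frobT_sq, Matrix.mul_sub, Matrix.mul_smul, Matrix.mul_one] at h3
    rw [sub_smul]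
    calc (s * e) • (X * C) - s ^ 3 • (X * C)
        = ((s * e) • (X * C) - (s ^ 3 • (X * C) - X)) - X := by abel
      _ = 0 := by rw [h3, sub_self]
  have hXC : X * C ≠ 0 := by
    intro h0
    rw [Matrix.mul_assoc, h0, Matrix.mul_zero] at h1
    rcases smul_eq_zero.1 h1.symm with h' | h'
    · rw [h', mul_zero] at he; exact zero_ne_one he
    · exact hX h'
  have hz := (smul_eq_zero.1 key).resolve_right hXC
  by_cases hs : s = 0
  · exact Or.inl hs
  · right
    have h5 : s ^ 2 = e := mul_left_cancel₀ hs (by linear_combination -hz)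
    rcases Int.units_eq_one_or ε with rfl | rfl
    · refine ⟨?_, rfl⟩
      have h3' : (3 : K) = 0 := by exact_mod_cast CharP.cast_eq_zero K 3
      have : e = 1 := by simp [e, sgn]
      rw [h5, this]; linear_combination -h3'
    · exfalso
      have : e = -1 := by simp [e, sgn]
      have hsq : IsSquare (-1 : K) := ⟨s, by rw [← this, ← h5, sq]⟩
      exact (FiniteField.isSquare_neg_one_iff.1 hsq) hq

theorem pow_three_of_tr_sq {g : SL(2, K)} (ht : tr g ^ 2 = 4) : g ^ 3 = 1 ∨ g ^ 3 = -1 := by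
  rcases exists_sign_tr_two ht with h | h
  · exact Or.inl (pow_char_of_tr_two 3 h)
  · right
    have := pow_char_of_tr_two 3 h
    rw [neg_pow, show (-1 : SL(2, K)) ^ 3 = -1 by rw [pow_succ, neg_one_sq, one_mul],
      neg_one_mul] at this
    rw [← this, neg_neg]

/-- An element with a nonzero fixed vector has order at most three. -/
theorem pow_of_fixed (hq : Fintype.card K % 4 = 3) (x : SL(2, K) × ℤˣ) {v : Multiplicative (V K k)}
    (hv : v ≠ 1) (h : phi x v = v) :
    (phi x : MulAut (Multiplicative (V K k))) ^ 2 = 1 ∨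
      (phi x : MulAut (Multiplicative (V K k))) ^ 3 = 1 := by
  obtain ⟨i, hi⟩ : ∃ i, v.toAdd i ≠ 0 := by
    by_contra hcon
    push Not at hcon
    exact hv (Multiplicative.toAdd.injective (funext hcon))
  obtain ⟨g, ε⟩ := x
  rcases trace_of_fixed hq hi (by rw [← phi_apply, h]) with h0 | ⟨h4, rfl⟩
  · left
    refine phi_pow_eq_one _ (Or.inr ?_) (Or.inl ⟨1, rfl⟩)
    rw [pow_two]
    apply sl2_ext <;> rw [sl2_sq, h0, sl2_neg] <;> simp
  · exact Or.inr (phi_pow_eq_one _ (pow_three_of_tr_sq h4) (Or.inr rfl))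

theorem eq_one_or_neg_of_sq {h : SL(2, K)} (hh : h * h = 1) : h = 1 ∨ h = -1 := by
  have hinv : h⁻¹ = h := inv_eq_of_mul_eq_one_right hh
  apply isScal_iff.1
  have h00 := congrArg (fun x : SL(2, K) => x 0 0) hinv
  have h01 := congrArg (fun x : SL(2, K) => x 0 1) hinv
  have h10 := congrArg (fun x : SL(2, K) => x 1 0) hinv
  simp only [sl2_inv_00, sl2_inv_01, sl2_inv_10] at h00 h01 h10
  have h2 : (2 : K) ≠ 0 := by
    intro h2
    have h3' : (3 : K) = 0 := by exact_mod_cast CharP.cast_eq_zero K 3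
    exact one_ne_zero (α := K) (by linear_combination h3' - h2)
  exact ⟨(mul_eq_zero.1 (show (2 : K) * h 0 1 = 0 by linear_combination -h01)).resolve_left h2,
    (mul_eq_zero.1 (show (2 : K) * h 1 0 = 0 by linear_combination -h10)).resolve_left h2, h00.symm⟩

/-- The possible orders in the acting group. -/
theorem phi_cases (hq : Fintype.card K % 4 = 3) (x : SL(2, K) × ℤˣ) :
    (phi x : MulAut (Multiplicative (V K k))) ^ 6 = 1 ∨
      (phi x : MulAut (Multiplicative (V K k))) ^ (Fintype.card K - 1) = 1 ∨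
      (phi x : MulAut (Multiplicative (V K k))) ^ ((Fintype.card K + 1) / 2) = 1 := by
  obtain ⟨g, ε⟩ := x
  by_cases ht : tr g ^ 2 = 4
  · left
    refine phi_pow_eq_one _ (Or.inl ?_) (Or.inl ⟨3, rfl⟩)
    rw [show 6 = 3 * 2 from rfl, pow_mul]
    rcases pow_three_of_tr_sq ht with h | h <;> simp [h]
  · have hc : ∀ n, Nat.card (cent g) = n → g ^ n = 1 := fun n hn => by
      have := pow_card_eq_one' (x := (⟨g, self_mem_cent g⟩ : cent g))
      rw [hn] at this
      exact congrArg Subtype.val this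
    rcases card_cent_ss ht with ⟨-, hcard⟩ | ⟨-, hcard⟩
    · right; left
      exact phi_pow_eq_one _ (Or.inl (hc _ hcard)) (Or.inl (Nat.even_iff.2 (by omega)))
    · right; right
      refine phi_pow_eq_one _ (eq_one_or_neg_of_sq ?_) (Or.inl (Nat.even_iff.2 (by omega)))
      rw [← pow_add]
      convert hc _ hcard using 2
      omega

/-- The kernel of the action. -/
theorem eq_one_of_phi_eq_one (hq : Fintype.card K % 4 = 3) (i₀ : Fin k) {x : SL(2, K) × ℤˣ}
    (h : (phi x : MulAut (Multiplicative (V K k))) = 1) : (x.1 = 1 ∨ x.1 = -1) ∧ x.2 = 1 := by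
  obtain ⟨g, ε⟩ := x
  have hX : ∀ X : Matrix (Fin 2) (Fin 2) K, act₁ (g, ε) X = X := fun X => by
    have := congrArg (fun f : MulAut (Multiplicative (V K k)) =>
      (f (Multiplicative.ofAdd (fun _ => X))).toAdd i₀) h
    simpa [phi_apply] using this
  have he : (sgn ε : K) ≠ 0 := by
    rcases Int.units_eq_one_or ε with rfl | rfl <;> simp [sgn]
  have e11 := fun a b => congrFun (congrFun (hX !![1, 0; 0, 0]) a) b
  have e22 := fun a b => congrFun (congrFun (hX !![0, 0; 0, 1]) a) b
  have e12 := fun a b => congrFun (congrFun (hX !![0, 1; 0, 0]) a) b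
  have a10 := e11 1 1
  have a01 := e22 0 0
  simp [act₁, Matrix.mul_apply, Fin.sum_univ_two, frobT_apply, he] at a10 a01
  have p11 := e11 0 0
  have p12 := e12 0 1
  simp [act₁, Matrix.mul_apply, Fin.sum_univ_two, frobT_apply] at p11 p12
  have hd := sl2_det g
  rw [a01, zero_mul, sub_zero] at hd
  rcases Int.units_eq_one_or ε with rfl | rfl
  · refine ⟨isScal_iff.1 ⟨a01, a10, ?_⟩, rfl⟩
    simp [sgn] at p11 p12
    grind
  · exfalso
    simp [sgn] at p11 p12
    have hsq : IsSquare (-1 : K) := ⟨g 0 0 ^ 2, by linear_combination p11⟩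
    exact (FiniteField.isSquare_neg_one_iff.1 hsq) hq

theorem dvd_of_phi_pow (hq : Fintype.card K % 4 = 3) (i₀ : Fin k) {g : SL(2, K)} {n : ℕ}
    (h : (phi (g, (-1 : ℤˣ)) : MulAut (Multiplicative (V K k))) ^ n = 1) :
    Even n ∧ orderOf g ∣ 2 * n := by
  rw [← map_pow, Prod.pow_mk] at h
  obtain ⟨hg, hε⟩ := eq_one_of_phi_eq_one hq i₀ h
  refine ⟨?_, orderOf_dvd_of_pow_eq_one ?_⟩
  · by_contra hodd
    simp only [(Nat.not_even_iff_odd.1 hodd).neg_one_pow] at hε
    exact absurd hε (by decide)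
  · rw [mul_comm, pow_mul]
    rcases hg with hg | hg <;> simp only at hg <;> simp [hg]

/-- The group. -/
abbrev Y (K : Type*) [Field K] [CharP K 3] (k : ℕ) :=
  Multiplicative (V K k) ⋊[((phi (K := K) (k := k)).range).subtype] ↥((phi (K := K) (k := k)).range)

instance : Finite ↥((phi (K := K) (k := k)).range) :=
  Finite.of_surjective _ (phi (K := K) (k := k)).rangeRestrict_surjective

instance : Finite (Y K k) := Finite.of_equiv _ SemidirectProduct.equivProd.symm

theorem three_pow_le_card : 3 ^ k ≤ Nat.card (Y K k) := by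
  rw [SemidirectProduct.card, Nat.card_eq_fintype_card (α := Multiplicative (V K k))]
  refine le_trans ?_ (Nat.le_mul_of_pos_right _ Nat.card_pos)
  rw [Fintype.card_multiplicative, Fintype.card_fun, Fintype.card_fin]
  refine Nat.pow_le_pow_left ?_ k
  have h : 3 ≤ Fintype.card K :=
    Nat.le_of_dvd Fintype.card_pos (by
      obtain ⟨n, -, hn⟩ := FiniteField.card K 3
      exact hn ▸ dvd_pow_self 3 n.ne_zero)
  exact h.trans (Fintype.card_le_of_injective (fun a : K => !![a, 0; 0, 0]) fun a b e => by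
    simpa using congrFun (congrFun e 0) 0)

theorem three_pow_eq_one (w : Multiplicative (V K k)) : w ^ 3 = 1 :=
  Multiplicative.toAdd.injective (funext fun i => by
    rw [toAdd_pow, toAdd_one, Pi.smul_apply, Pi.zero_apply]
    ext a b
    simp only [Matrix.smul_apply, Matrix.zero_apply, nsmul_eq_mul, CharP.cast_eq_zero, zero_mul])

/-- All element orders of the extension. -/
theorem orderOf_cases (hq : Fintype.card K % 4 = 3) (y : Y K k) :
    orderOf y ∣ 6 ∨ orderOf y ∣ 9 ∨ orderOf y ∣ Fintype.card K - 1 ∨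
      orderOf y ∣ (Fintype.card K + 1) / 2 := by
  obtain ⟨x, hx⟩ := y.right.2
  have hpow : ∀ n : ℕ, (phi x : MulAut (Multiplicative (V K k))) ^ n = 1 → y.right ^ n = 1 :=
    fun n hn => Subtype.ext (by rw [SubmonoidClass.coe_pow, ← hx, hn]; rfl)
  by_cases hfix : ∃ w : Multiplicative (V K k), phi x w = w ∧ w ≠ 1
  · obtain ⟨w, hw, hw1⟩ := hfix
    rcases pow_of_fixed hq x hw1 hw with h | h
    · exact Or.inl (orderOf_dvd_of_pow_eq_one (pow_three_mul_eq_one three_pow_eq_one y (hpow 2 h)))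
    · exact Or.inr (Or.inl (orderOf_dvd_of_pow_eq_one (pow_three_mul_eq_one three_pow_eq_one y (hpow 3 h))))
  · have hf : ∀ w, ((phi (K := K) (k := k)).range).subtype y.right w = w → w = 1 := fun w hw => by
      by_contra h1
      exact hfix ⟨w, by rw [hx]; exact hw, h1⟩
    rcases phi_cases (k := k) hq x with h | h | h
    · exact Or.inl (orderOf_dvd_of_pow_eq_one (pow_eq_one_of_fpf y (hpow 6 h) hf))
    · exact Or.inr (Or.inr (Or.inl (orderOf_dvd_of_pow_eq_one (pow_eq_one_of_fpf y (hpow _ h) hf))))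
    · exact Or.inr (Or.inr (Or.inr (orderOf_dvd_of_pow_eq_one (pow_eq_one_of_fpf y (hpow _ h) hf))))

theorem orderOf_inr_phi (x : SL(2, K) × ℤˣ) :
    orderOf (SemidirectProduct.inr ⟨phi x, x, rfl⟩ : Y K k) =
      orderOf (phi x : MulAut (Multiplicative (V K k))) := by
  rw [orderOf_injective _ SemidirectProduct.inr_injective, ← Subgroup.orderOf_coe]

theorem exists_orderOf_six (hq : Fintype.card K % 4 = 3) (i₀ : Fin k) :
    ∃ y : Y K k, orderOf y = 6 := by
  let u : SL(2, K) := sl2 1 1 0 1 (by simp)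
  have hu : orderOf u = 3 :=
    haveI : Fact (Nat.Prime 3) := ⟨Nat.prime_three⟩
    orderOf_eq_prime (pow_char_of_tr_two 3 (by simp [tr, u]; norm_num)) fun h => by
      have := congrArg (fun x : SL(2, K) => x 0 1) h
      simp [u] at this
  refine ⟨_, (orderOf_inr_phi (u, -1)).trans ?_⟩
  apply Nat.dvd_antisymm
  · refine orderOf_dvd_of_pow_eq_one (phi_pow_eq_one _ (Or.inl ?_) (Or.inl ⟨3, rfl⟩))
    exact orderOf_dvd_iff_pow_eq_one.1 (hu ▸ by norm_num)
  · obtain ⟨⟨r, hr⟩, hd⟩ := dvd_of_phi_pow hq i₀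
      (pow_orderOf_eq_one (phi (u, (-1 : ℤˣ)) : MulAut (Multiplicative (V K k))))
    rw [hu] at hd
    have h3 := ((Nat.Coprime.dvd_of_dvd_mul_left (by norm_num) hd) : 3 ∣ _)
    omega

theorem exists_orderOf_sub_one (hq : Fintype.card K % 4 = 3) (i₀ : Fin k) :
    ∃ y : Y K k, orderOf y = Fintype.card K - 1 := by
  obtain ⟨t, ht⟩ := IsCyclic.exists_ofOrder_eq_natCard (α := Kˣ)
  rw [Nat.card_units, Nat.card_eq_fintype_card] at ht
  let D : Kˣ →* SL(2, K) := MonoidHom.mk' diagSL diagSL_mul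
  have hD : orderOf (D t) = Fintype.card K - 1 := by
    rw [orderOf_injective D (fun a b e => Units.ext (congrArg (fun x : SL(2, K) => x 0 0) e)), ht]
  refine ⟨_, (orderOf_inr_phi (D t, -1)).trans ?_⟩
  apply Nat.dvd_antisymm
  · refine orderOf_dvd_of_pow_eq_one (phi_pow_eq_one _ (Or.inl ?_) (Or.inl (Nat.even_iff.2 (by omega))))
    rw [← hD]; exact pow_orderOf_eq_one _
  · obtain ⟨he, hd⟩ := dvd_of_phi_pow hq i₀
      (pow_orderOf_eq_one (phi (D t, (-1 : ℤˣ)) : MulAut (Multiplicative (V K k))))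
    rw [hD] at hd
    rw [show Fintype.card K - 1 = 2 * ((Fintype.card K - 1) / 2) by omega] at hd ⊢
    exact Nat.Coprime.mul_dvd_of_dvd_of_dvd (Nat.coprime_two_left.2 (Nat.odd_iff.2 (by omega)))
      he.two_dvd (Nat.dvd_of_mul_dvd_mul_left (by norm_num) hd)

theorem exists_orderOf_half (hq : Fintype.card K % 4 = 3) (i₀ : Fin k) :
    ∃ y : Y K k, orderOf y = (Fintype.card K + 1) / 2 := by
  obtain ⟨t, hs⟩ := exists_not_split (F := K)
  have ht4 : tr (comp t) ^ 2 ≠ 4 := by rw [tr_comp]; exact sq_ne_four_of_not_split hs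
  have := cent_cyclic ht4
  obtain ⟨c, hc⟩ := IsCyclic.exists_ofOrder_eq_natCard (α := cent (comp t))
  rw [card_cent_nonsplit ht4 (by rwa [tr_comp]), ← Subgroup.orderOf_coe] at hc
  refine ⟨_, (orderOf_inr_phi ((c : SL(2, K)), -1)).trans ?_⟩
  apply Nat.dvd_antisymm
  · refine orderOf_dvd_of_pow_eq_one
      (phi_pow_eq_one _ (eq_one_or_neg_of_sq ?_) (Or.inl (Nat.even_iff.2 (by omega))))
    rw [← pow_add]
    refine orderOf_dvd_iff_pow_eq_one.1 (dvd_of_eq ?_)
    rw [hc]; omega
  · obtain ⟨-, hd⟩ := dvd_of_phi_pow hq i₀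
      (pow_orderOf_eq_one (phi ((c : SL(2, K)), (-1 : ℤˣ)) : MulAut (Multiplicative (V K k))))
    rw [hc, show Fintype.card K + 1 = 2 * ((Fintype.card K + 1) / 2) by omega] at hd
    exact Nat.dvd_of_mul_dvd_mul_left (by norm_num) hd

theorem exists_orderOf_nine (i₀ : Fin k) : ∃ y : Y K k, orderOf y = 9 := by
  let u : SL(2, K) := sl2 1 1 0 1 (by simp)
  have hu3 : u ^ 3 = 1 := pow_char_of_tr_two 3 (by simp [tr, u]; norm_num)
  let r : ↥((phi (K := K) (k := k)).range) := ⟨phi (u, 1), (u, 1), rfl⟩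
  let y : Y K k := ⟨Multiplicative.ofAdd fun _ => !![0, 0; 0, 1], r⟩
  refine ⟨y, ?_⟩
  haveI : Fact (Nat.Prime 3) := ⟨Nat.prime_three⟩
  have hr : y.right ^ 3 = 1 := Subtype.ext (by
    rw [SubmonoidClass.coe_pow]
    exact phi_pow_eq_one _ (Or.inl hu3) (Or.inr rfl))
  refine orderOf_eq_prime_pow (p := 3) (n := 1) ?_ (pow_three_mul_eq_one three_pow_eq_one y hr)
  rw [pow_one]
  intro h
  have h' := congrArg (fun z : Y K k => z.left.toAdd i₀ 0 0) h
  simp [pow_succ, SemidirectProduct.mul_left, SemidirectProduct.one_left, y, r, phi_apply, act₁, sgn,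
    Matrix.mul_apply, Fin.sum_univ_two, frobT_apply, u, sl2_mul] at h'
  have h3' : (3 : K) = 0 := by exact_mod_cast CharP.cast_eq_zero K 3
  exact one_ne_zero (α := K) (by linear_combination 2 * h3' - h')

/-- The element orders of the extension are exactly the divisors of the four numbers. -/
theorem exists_orderOf_iff (hq : Fintype.card K % 4 = 3) (i₀ : Fin k) (d : ℕ) :
    (∃ y : Y K k, orderOf y = d) ↔
      d ∣ 6 ∨ d ∣ 9 ∨ d ∣ Fintype.card K - 1 ∨ d ∣ (Fintype.card K + 1) / 2 := by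
  constructor
  · rintro ⟨y, rfl⟩; exact orderOf_cases hq y
  · intro h
    have key : ∀ N, (∃ y : Y K k, orderOf y = N) → d ∣ N → ∃ y : Y K k, orderOf y = d := by
      rintro N ⟨y, rfl⟩ hd
      exact ⟨y ^ (orderOf y / d), orderOf_pow_orderOf_div (orderOf_pos y).ne' hd⟩
    rcases h with h | h | h | h
    · exact key _ (exists_orderOf_six hq i₀) h
    · exact key _ (exists_orderOf_nine i₀) h
    · exact key _ (exists_orderOf_sub_one hq i₀) h
    · exact key _ (exists_orderOf_half hq i₀) h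

end Field

end Cfsg.Agent.H84.ReeCube
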