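import Cfsg.Agent.H84.ReeCubeModule

/-!
A group whose element orders are the divisors of `6`, `9`, `q - 1`, `(q + 1) / 2`, `A` and `B` has a direct
cube which shares its set of element orders with arbitrarily large groups: one of the three factors can be
exchanged for an extension of `C₂ × PSL₂(q)` by a module of any size.
-/

set_option autoImplicit false

namespace Cfsg.Agent.H84.ReeCube

theorem orderOf_triple {A B C : Type*} [Monoid A] [Monoid B] [Monoid C] (a : A) (b : B) (c : C) :
    orderOf (a, b, c) = Nat.lcm (orderOf a) (Nat.lcm (orderOf b) (orderOf c)) := by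
  rw [Prod.orderOf_mk, Prod.orderOf_mk]

/-- One factor of the cube may be replaced when the orders it loses are the divisors of two numbers. -/
theorem range_orderOf_replace {R Y : Type*} [Monoid R] [Monoid Y] {A B : ℕ}
    (hYR : ∀ y : Y, ∃ r : R, orderOf r = orderOf y)
    (hR : ∀ r : R, (∃ y : Y, orderOf y = orderOf r) ∨ orderOf r ∣ A ∨ orderOf r ∣ B)
    (hA : ∀ d, d ∣ A → ∃ r : R, orderOf r = d) (hB : ∀ d, d ∣ B → ∃ r : R, orderOf r = d) :
    Set.range (orderOf : R × R × Y → ℕ) = Set.range (orderOf : R × R × R → ℕ) := by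
  apply Set.Subset.antisymm
  · rintro _ ⟨⟨a, b, y⟩, rfl⟩
    obtain ⟨r, hr⟩ := hYR y
    exact ⟨(a, b, r), by rw [orderOf_triple, orderOf_triple, hr]⟩
  · rintro _ ⟨⟨a, b, c⟩, rfl⟩
    rw [orderOf_triple]
    rcases hR c with ⟨y, hy⟩ | hc
    · exact ⟨(a, b, y), by rw [orderOf_triple, hy]⟩
    rcases hR b with ⟨y, hy⟩ | hb
    · exact ⟨(a, c, y), by rw [orderOf_triple, hy, Nat.lcm_comm (orderOf c)]⟩
    rcases hR a with ⟨y, hy⟩ | ha
    · refine ⟨(b, c, y), ?_⟩
      rw [orderOf_triple, hy, ← Nat.lcm_assoc, Nat.lcm_comm]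
    have pair : ∀ x y z : R, (∃ N, (∀ d, d ∣ N → ∃ r : R, orderOf r = d) ∧ orderOf x ∣ N ∧ orderOf y ∣ N) →
        Nat.lcm (orderOf x) (Nat.lcm (orderOf y) (orderOf z)) ∈ Set.range (orderOf : R × R × Y → ℕ) := by
      rintro x y z ⟨N, hN, hx, hy⟩
      obtain ⟨r, hr⟩ := hN _ (Nat.lcm_dvd hx hy)
      exact ⟨(r, z, 1), by rw [orderOf_triple, hr, orderOf_one, Nat.lcm_one_right, Nat.lcm_assoc]⟩
    rcases ha with ha | ha <;> rcases hb with hb | hb <;> rcases hc with hc | hc
    all_goals first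
      | exact pair a b c ⟨A, hA, ha, hb⟩
      | exact pair a b c ⟨B, hB, ha, hb⟩
      | (rw [Nat.lcm_comm (orderOf b)]
         first
           | exact pair a c b ⟨A, hA, ha, hc⟩
           | exact pair a c b ⟨B, hB, ha, hc⟩)
      | (rw [Nat.lcm_comm]
         rw [Nat.lcm_assoc]
         first
           | exact pair b c a ⟨A, hA, hb, hc⟩
           | exact pair b c a ⟨B, hB, hb, hc⟩)

/-- A type with `n` points and no algebraic structure. -/
def Points (n : ℕ) : Type := Fin n

instance (n : ℕ) : Fintype (Points n) := inferInstanceAs (Fintype (Fin n))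

/-- Arbitrarily large groups isospectral to the cube. -/
theorem exists_large_isospectral {K R : Type*} [Field K] [Fintype K] [CharP K 3] [Group R] [Finite R]
    (hq : Fintype.card K % 4 = 3) {A B : ℕ}
    (hspec : ∀ d, (∃ r : R, orderOf r = d) ↔
      (d ∣ 6 ∨ d ∣ 9 ∨ d ∣ Fintype.card K - 1 ∨ d ∣ (Fintype.card K + 1) / 2 ∨ d ∣ A ∨ d ∣ B))
    (N : ℕ) :
    ∃ (H : Type) (_ : Group H) (_ : Fintype H), N < Fintype.card H ∧
      Set.range (orderOf : H → ℕ) = Set.range (orderOf : R × R × R → ℕ) := by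
  classical
  have hY := fun d => exists_orderOf_iff (K := K) (k := N + 1) hq 0 d
  let e : Points (Nat.card (R × R × Y K (N + 1))) ≃ R × R × Y K (N + 1) :=
    (Finite.equivFin (R × R × Y K (N + 1))).symm
  letI : Group (Points (Nat.card (R × R × Y K (N + 1)))) := e.group
  refine ⟨Points (Nat.card (R × R × Y K (N + 1))), inferInstance, inferInstance, ?_, ?_⟩
  · rw [← Nat.card_eq_fintype_card, Nat.card_congr e, Nat.card_prod, Nat.card_prod]
    have h1 := three_pow_le_card (K := K) (k := N + 1)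
    have h2 : N < 3 ^ (N + 1) := (Nat.lt_succ_self N).trans (Nat.lt_pow_self (by norm_num))
    have h3 : 0 < Nat.card R := Nat.card_pos
    calc N < Nat.card (Y K (N + 1)) := h2.trans_le h1
      _ ≤ Nat.card R * (Nat.card R * Nat.card (Y K (N + 1))) := by
        rw [← mul_assoc]; exact Nat.le_mul_of_pos_left _ (Nat.mul_pos h3 h3)
  · have he : Set.range (orderOf : Points (Nat.card (R × R × Y K (N + 1))) → ℕ) =
        Set.range (orderOf : R × R × Y K (N + 1) → ℕ) := by
      ext d
      exact ⟨fun ⟨x, hx⟩ => ⟨e x, by rw [← hx]; exact (Equiv.mulEquiv e).orderOf_eq x⟩,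
        fun ⟨y, hy⟩ => ⟨e.symm y, by rw [← hy]; exact (Equiv.mulEquiv e).symm.orderOf_eq y⟩⟩
    rw [he]
    refine range_orderOf_replace (A := A) (B := B) (fun y => ?_) (fun r => ?_)
      (fun d hd => (hspec d).2 (by tauto)) (fun d hd => (hspec d).2 (by tauto))
    · have := (hY _).1 ⟨y, rfl⟩
      exact (hspec _).2 (by tauto)
    · have h := (hspec _).1 ⟨r, rfl⟩
      have := (hY (orderOf r)).2
      tauto

end Cfsg.Agent.H84.ReeCube
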